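import Cfsg.Agent.WeakClosureJ.Inner

/-!
Glauberman's theorem on weakly closed elements: an element of a Sylow `p`-subgroup `S` centralised by
`N(J(S))` is weakly closed in `S` (for `p` odd, or for a `p`-th power of a central element, or without
sections of the symmetric group of degree four).
-/

set_option autoImplicit false

namespace CfsgLib.WeakClosureJ

open Cfsg CfsgLib.GlaubermanZJ

universe u

variable {G : Type u} [Group G] [Finite G] {p : ℕ} [Fact p.Prime]

/-- The measure of an intersection. -/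
noncomputable def interMeasure (D : Subgroup G) : ℕ := jKey D * (Nat.card G + 1) + Nat.card D

theorem interMeasure_lt {D D' : Subgroup G} (h : D ≤ D') (hne : D ≠ D') :
    interMeasure D < interMeasure D' := by
  have h1 : Nat.card D < Nat.card D' :=
    lt_of_le_of_ne (Subgroup.card_le_of_le h) fun e => hne (Subgroup.eq_of_le_of_card_ge h e.ge)
  have h2 := Nat.mul_le_mul (jKey_mono h) (le_refl (Nat.card G + 1))
  rw [interMeasure, interMeasure]
  omega

theorem interMeasure_mono {D D' : Subgroup G} (h : D ≤ D') : interMeasure D ≤ interMeasure D' := by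
  rcases eq_or_ne D D' with rfl | hne
  exacts [le_rfl, (interMeasure_lt h hne).le]

theorem interMeasure_lt_of_jKey {D E : Subgroup G} (h : jKey D < jKey E) :
    interMeasure D < interMeasure E := by
  have h1 : (jKey D + 1) * (Nat.card G + 1) ≤ jKey E * (Nat.card G + 1) := Nat.mul_le_mul h le_rfl
  have h2 := Subgroup.card_le_card_group D
  rw [add_mul, one_mul] at h1
  rw [interMeasure, interMeasure]
  omega

theorem interMeasure_le (D : Subgroup G) :
    interMeasure D ≤ interMeasure (⊤ : Subgroup G) := interMeasure_mono le_top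

/-- Weak closure. -/
theorem conj_eq (S : Sylow p G) {z x : G}
    (hz : z ∈ (S : Subgroup G)) (hSz : ∀ s ∈ (S : Subgroup G), s * z = z * s)
    (hcase : ExpCase p G z x)
    (hN : ∀ n ∈ Subgroup.normalizer (abJ (S : Subgroup G) : Set G), n * x = x * n) :
    ∀ g g' : G, g * x * g⁻¹ ∈ cj g' (S : Subgroup G) → g * x * g⁻¹ = g' * x * g'⁻¹ := by
  classical
  have hxS : x ∈ (S : Subgroup G) := by
    rcases hcase with ⟨h, -⟩ | h <;> rw [h]
    exacts [hz, pow_mem hz p]
  have hNg : ∀ g n : G, n ∈ Subgroup.normalizer (abJ (cj g (S : Subgroup G)) : Set G) →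
      n * (g * x * g⁻¹) = g * x * g⁻¹ * n := by
    intro g n hn
    have h1 : g⁻¹ * n * g ∈ Subgroup.normalizer (abJ (S : Subgroup G) : Set G) := by
      refine mem_normalizer_of_cj_le (le_of_eq ?_)
      have h2 := cj_eq_of_mem_normalizer hn
      rw [abJ_cj] at h2
      rw [cj_mul, cj_mul, h2, cj_inv_cj]
    calc n * (g * x * g⁻¹) = g * ((g⁻¹ * n * g) * x) * g⁻¹ := by group
      _ = g * (x * (g⁻¹ * n * g)) * g⁻¹ := by rw [hN _ h1]
      _ = g * x * g⁻¹ * n := by group
  have hu_mem : ∀ g : G, g * x * g⁻¹ ∈ cj g (S : Subgroup G) := fun g => ⟨x, hxS, rfl⟩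
  have hu_comm : ∀ g : G, ∀ t ∈ cj g (S : Subgroup G), t * (g * x * g⁻¹) = g * x * g⁻¹ * t := by
    intro g t ht
    exact hNg g t (normalizer_le_normalizer_abJ _ (Subgroup.le_normalizer ht))
  -- strong induction
  suffices key : ∀ (k : ℕ) (g g' : G), g * x * g⁻¹ ∈ cj g' (S : Subgroup G) →
      interMeasure (⊤ : Subgroup G) - interMeasure (cj g (S : Subgroup G) ⊓ cj g' (S : Subgroup G)) = k →
      g * x * g⁻¹ = g' * x * g'⁻¹ from fun g g' h => key _ g g' h rfl
  intro k
  induction k using Nat.strong_induction_on with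
  | _ k ih =>
  intro g g' hug' hk
  set u := g * x * g⁻¹ with hu
  set D := cj g (S : Subgroup G) ⊓ cj g' (S : Subgroup G) with hD
  have huD : u ∈ D := ⟨hu_mem g, hug'⟩
  -- applying the induction hypothesis
  have IH : ∀ (a b : G) (E : Subgroup G), a * x * a⁻¹ = u → u ∈ cj b (S : Subgroup G) →
      E ≤ cj a (S : Subgroup G) → E ≤ cj b (S : Subgroup G) → interMeasure D < interMeasure E →
      b * x * b⁻¹ = u := by
    intro a b E hau hub hEa hEb hlt
    have h1 := interMeasure_mono (le_inf hEa hEb)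
    have h2 := interMeasure_le (cj a (S : Subgroup G) ⊓ cj b (S : Subgroup G))
    have := ih _ (by omega) a b (hau ▸ hub) rfl
    rw [← this, hau]
  have hDp : IsPGroup p D := (S.2.map _).to_le inf_le_left
  by_cases hDg : D = cj g (S : Subgroup G)
  · have h1 : cj g (S : Subgroup G) = cj g' (S : Subgroup G) :=
      Subgroup.eq_of_le_of_card_ge (hDg ▸ inf_le_right) (by rw [card_cj, card_cj])
    have hh : g' * g⁻¹ ∈ Subgroup.normalizer (abJ (cj g (S : Subgroup G)) : Set G) := by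
      refine normalizer_le_normalizer_abJ _ (mem_normalizer_of_cj_le (le_of_eq ?_))
      rw [← cj_mul, inv_mul_cancel_right]
      exact h1.symm
    have h3 := hNg g _ hh
    calc g * x * g⁻¹ = (g * x * g⁻¹) * (g' * g⁻¹) * (g' * g⁻¹)⁻¹ := by group
      _ = (g' * g⁻¹) * (g * x * g⁻¹) * (g' * g⁻¹)⁻¹ := by rw [h3]
      _ = g' * x * g'⁻¹ := by group
  have hDg' : D ≠ cj g' (S : Subgroup G) := by
    intro he
    refine hDg (Subgroup.eq_of_le_of_card_ge inf_le_left ?_)
    rw [card_cj, ← card_cj g' (S : Subgroup G), ← he]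
  set ND := Subgroup.normalizer (D : Set G) with hND
  -- the Sylow subgroup above `N_P(D)`
  obtain ⟨Q, hQ⟩ := ((S.2.map (MulAut.conj g).toMonoidHom).to_le inf_le_left :
    IsPGroup p (cj g (S : Subgroup G) ⊓ ND : Subgroup G)).comap_of_injective ND.subtype
      ND.subtype_injective |>.exists_le_sylow
  obtain ⟨h, hh⟩ := exists_le_cj S (Q.2.map ND.subtype)
  set Qm := (Q : Subgroup ND).map ND.subtype with hQm
  have hDQ : D ≤ Qm := fun t ht => ⟨⟨t, Subgroup.le_normalizer ht⟩, hQ ⟨ht.1, Subgroup.le_normalizer ht⟩, rfl⟩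
  have hgrow : interMeasure D < interMeasure (cj g (S : Subgroup G) ⊓ ND) := by
    refine interMeasure_lt (le_inf inf_le_left Subgroup.le_normalizer) fun he => ?_
    obtain ⟨y, hy, hyN, hyD⟩ := exists_normalizer_gt (S.2.map _) (inf_le_left : D ≤ cj g (S : Subgroup G)) hDg
    exact hyD (he.ge ⟨hy, hyN⟩)
  have hQg : cj g (S : Subgroup G) ⊓ ND ≤ Qm := fun t ht => ⟨⟨t, ht.2⟩, hQ ht, rfl⟩
  have huh : h * x * h⁻¹ = u :=
    IH g h _ rfl (hh (hDQ huD)) inf_le_left (hQg.trans hh) hgrow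
  have hQmax : ∀ t, t ∈ ND → t ∈ cj h (S : Subgroup G) → t ∈ Qm := by
    intro t htN ht
    have h1 : (Q : Subgroup ND) ≤ (cj h (S : Subgroup G)).subgroupOf ND := fun s hs => hh ⟨s, hs, rfl⟩
    have h2 := Q.3 ((S.2.map _).comap_of_injective ND.subtype ND.subtype_injective) h1
    exact ⟨⟨t, htN⟩, h2.le ht, rfl⟩
  -- elements normalising a larger subgroup fix `u`
  have hfix : ∀ (a : G) (E : Subgroup G), a * x * a⁻¹ = u → E ≤ cj a (S : Subgroup G) → u ∈ E →
      interMeasure D < interMeasure E → ∀ n ∈ Subgroup.normalizer (E : Set G), n * u = u * n := by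
    intro a E hau hEa huE hlt n hn
    have hEn : E ≤ cj (n * a) (S : Subgroup G) := by
      rw [cj_mul, ← cj_eq_of_mem_normalizer hn]
      exact cj_mono n hEa
    have h1 := IH a (n * a) E hau (hEn huE) hEa hEn hlt
    calc n * u = n * (a * x * a⁻¹) := by rw [hau]
      _ = (n * a * x * (n * a)⁻¹) * n := by group
      _ = u * n := by rw [h1]
  -- it suffices that `N(D)` fixes `u`
  suffices hfixD : ∀ n ∈ ND, n * u = u * n by
    obtain ⟨Q', hQ'⟩ := ((S.2.map (MulAut.conj g').toMonoidHom).to_le inf_le_left :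
      IsPGroup p (cj g' (S : Subgroup G) ⊓ ND : Subgroup G)).comap_of_injective ND.subtype
        ND.subtype_injective |>.exists_le_sylow
    obtain ⟨⟨m, hm⟩, hmQ⟩ := MulAction.exists_smul_eq ND Q Q'
    have hle : cj g' (S : Subgroup G) ⊓ ND ≤ cj (m * h) (S : Subgroup G) := by
      intro t ht
      have h1 : (⟨t, ht.2⟩ : ND) ∈ (Q' : Subgroup ND) := hQ' ht
      rw [← hmQ] at h1
      obtain ⟨s, hs, hst⟩ := h1
      rw [cj_mul]
      exact ⟨s, hh ⟨s, hs, rfl⟩, congrArg Subtype.val hst⟩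
    have hmu : m * h * x * (m * h)⁻¹ = u := by
      rw [show m * h * x * (m * h)⁻¹ = m * (h * x * h⁻¹) * m⁻¹ by group, huh, hfixD m hm,
        mul_inv_cancel_right]
    refine (IH (m * h) g' (cj g' (S : Subgroup G) ⊓ ND) hmu hug' hle inf_le_left ?_).symm
    refine interMeasure_lt (le_inf inf_le_right Subgroup.le_normalizer) fun he => ?_
    obtain ⟨y, hy, hyN, hyD⟩ := exists_normalizer_gt (S.2.map _) (inf_le_right : D ≤ cj g' (S : Subgroup G)) hDg'
    exact hyD (he.ge ⟨hy, hyN⟩)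
  -- the centraliser of `D`
  set CD := Subgroup.centralizer (D : Set G) with hCD
  have hCfix : ∀ c ∈ CD, c * u = u * c := fun c hc => (Subgroup.mem_centralizer_iff.1 hc u huD).symm
  have hCN : CD ≤ ND := Subgroup.centralizer_le_normalizer _
  by_cases hcen : Qm ⊓ CD ≤ D
  swap
  · intro n hn
    haveI : (CD.subgroupOf ND).Normal := Subgroup.normal_subgroupOf_of_le_normalizer
      (CfsgLib.Coprime.le_normalizer_centralizer le_rfl)
    obtain ⟨⟨m, hmN⟩, hm, ⟨c, hcN⟩, hc, hmc⟩ :=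
      exists_frattini Q (CD.subgroupOf ND) (⟨n, hn⟩ : ND)
    have hnc : n = m * c := congrArg Subtype.val hmc
    set E := D ⊔ (Qm ⊓ CD) with hE
    have hmE : m ∈ Subgroup.normalizer (E : Set G) := by
      refine mem_normalizer_of_cj_le ?_
      rw [cj, hE, Subgroup.map_sup]
      refine sup_le_sup (le_of_eq (Subgroup.mem_normalizer_iff_map_conj_eq.1 hmN)) ?_
      rintro _ ⟨t, ⟨⟨t', ht', rfl⟩, htC⟩, rfl⟩
      obtain ⟨hq, hc'⟩ := (Subgroup.mem_normalizer_iff.1 hm t').1 ⟨ht', htC⟩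
      exact ⟨⟨_, hq, rfl⟩, hc'⟩
    have h1 : m * u = u * m := hfix h E huh (sup_le (hDQ.trans hh) (inf_le_left.trans hh))
      (Subgroup.mem_sup_left huD) (interMeasure_lt le_sup_left fun he => hcen (le_sup_right.trans he.ge))
      m hmE
    rw [hnc]
    calc m * c * u = m * (u * c) := by rw [mul_assoc, hCfix c hc]
      _ = u * (m * c) := by rw [← mul_assoc, h1, mul_assoc]
  -- `D` is centric: pass to `N(J(D))`
  set Y := Subgroup.normalizer (abJ D : Set G) with hY
  have hNDY : ND ≤ Y := normalizer_le_normalizer_abJ _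
  suffices hfixY : ∀ n ∈ Y, n * u = u * n from fun n hn => hfixY n (hNDY hn)
  obtain ⟨R, hR⟩ := ((Q.2.map ND.subtype) : IsPGroup p Qm).comap_of_injective Y.subtype
    Y.subtype_injective |>.exists_le_sylow
  obtain ⟨k', hk'⟩ := exists_le_cj S (R.2.map Y.subtype)
  set Rm := (R : Subgroup Y).map Y.subtype with hRm
  have hQR : Qm ≤ Rm := fun t ht =>
    ⟨⟨t, hNDY (Subgroup.map_subtype_le _ ht)⟩, hR ht, rfl⟩
  have hgrowQ : interMeasure D < interMeasure Qm := lt_of_lt_of_le hgrow (interMeasure_mono hQg)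
  have huk : k' * x * k'⁻¹ = u :=
    IH h k' Qm huh (hk' (hQR (hDQ huD))) hh (hQR.trans hk') hgrowQ
  have hRmax : ∀ t, t ∈ Y → t ∈ cj k' (S : Subgroup G) → t ∈ Rm := by
    intro t htY ht
    have h1 : (R : Subgroup Y) ≤ (cj k' (S : Subgroup G)).subgroupOf Y := fun s hs => hk' ⟨s, hs, rfl⟩
    exact ⟨⟨t, htY⟩, (R.3 ((S.2.map _).comap_of_injective Y.subtype Y.subtype_injective) h1).le ht, rfl⟩
  by_cases hJR : abJ Rm = abJ D
  · have hall : Rm = cj k' (S : Subgroup G) := by
      by_contra hne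
      obtain ⟨y, hy, hyN, hyR⟩ := exists_normalizer_gt (S.2.map _) hk' hne
      refine hyR (hRmax y ?_ hy)
      rw [hY, ← hJR]
      exact normalizer_le_normalizer_abJ _ hyN
    intro n hn
    rw [← huk]
    refine hNg k' n ?_
    rw [← hall, hJR]
    exact hn
  have hDR : D ≤ Rm := hDQ.trans hQR
  have hkeyR : interMeasure D < interMeasure (abJ Rm) :=
    interMeasure_lt_of_jKey (by rw [jKey_abJ]; exact jKey_lt hDR fun e => hJR e.symm)
  -- the element above `u`
  set w := k' * z * k'⁻¹ with hw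
  have hwc : ∀ t ∈ cj k' (S : Subgroup G), t * w = w * t := by
    intro t ht
    have h1 := hSz _ (mem_cj.1 ht)
    calc t * w = k' * ((k'⁻¹ * t * k') * z) * k'⁻¹ := by rw [hw]; group
      _ = k' * (z * (k'⁻¹ * t * k')) * k'⁻¹ := by rw [h1]
      _ = w * t := by rw [hw]; group
  have hwC : w ∈ CD := Subgroup.mem_centralizer_iff.2 fun t ht => hwc t (hk' (hDR ht))
  have hwD : w ∈ D := by
    refine hcen ⟨?_, hwC⟩
    have hwS : w ∈ cj k' (S : Subgroup G) := ⟨z, hz, rfl⟩
    have h1 : (Q : Subgroup ND) ≤ (cj k' (S : Subgroup G)).subgroupOf ND :=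
      fun s hs => hk' (hQR ⟨s, hs, rfl⟩)
    have h2 := Q.3 ((S.2.map _).comap_of_injective ND.subtype ND.subtype_injective) h1
    exact ⟨⟨w, hCN hwC⟩, h2.le hwS, rfl⟩
  set V := abJ D ⊓ Subgroup.centralizer (abJ D : Set G) with hV
  have hwV : w ∈ V := by
    refine ⟨mem_abJ_of_central hwD fun t ht => hwc t (hk' (hDR ht)), Subgroup.mem_centralizer_iff.2
      fun t ht => hwc t (hk' (hDR (abJ_le D ht)))⟩
  haveI hVn : (V.subgroupOf Y).Normal := by
    refine ⟨fun v hv n => ?_⟩
    refine ⟨(Subgroup.mem_normalizer_iff.1 n.2 _).1 hv.1, ?_⟩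
    show (n : G) * v * (n : G)⁻¹ ∈ Subgroup.centralizer (abJ D : Set G)
    refine Subgroup.mem_centralizer_iff.2 fun t ht => ?_
    have ht' : (n : G)⁻¹ * t * n ∈ abJ D := (Subgroup.mem_normalizer_iff''.1 n.2 t).1 ht
    have h1 : (n : G)⁻¹ * t * n * (v : G) = (v : G) * ((n : G)⁻¹ * t * n) :=
      Subgroup.mem_centralizer_iff.1 hv.2 _ ht'
    calc t * ((n : G) * v * (n : G)⁻¹) = n * (((n : G)⁻¹ * t * n) * v) * (n : G)⁻¹ := by group
      _ = n * (v * ((n : G)⁻¹ * t * n)) * (n : G)⁻¹ := by rw [h1]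
      _ = n * v * (n : G)⁻¹ * t := by group
  have hVc : IsMulCommutative (V.subgroupOf Y) :=
    ⟨⟨fun a b => Subtype.ext (Subtype.ext (Subgroup.mem_centralizer_iff.1 b.2.2 _ a.2.1))⟩⟩
  have hwY : w ∈ Y := hNDY (hCN hwC)
  have huY : k' * x * k'⁻¹ ∈ Y := by rw [huk]; exact hNDY (Subgroup.le_normalizer huD)
  have key := inner (V.subgroupOf Y) hVc
    ((hDp.to_le (inf_le_left.trans (abJ_le D))).comap_of_injective Y.subtype Y.subtype_injective) R
    (z := ⟨w, hwY⟩) (x := ⟨k' * x * k'⁻¹, huY⟩) hwV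
    (fun r hr => Subtype.ext (hwc r (hk' ⟨r, hr, rfl⟩)))
    (by
      rcases hcase with ⟨h1, h2⟩ | h1
      · exact Or.inl ⟨Subtype.ext (show k' * x * k'⁻¹ = w by rw [h1]),
          h2.imp id fun h4 hi => h4 (CfsgLib.Offender.involves_of_subgroup Y hi)⟩
      · exact Or.inr (Subtype.ext (show k' * x * k'⁻¹ = w ^ p by rw [h1, hw, conj_pow])))
    (fun n hn => Subtype.ext (show (n : G) * (k' * x * k'⁻¹) = k' * x * k'⁻¹ * n by
      rw [huk]
      refine hfix k' (abJ Rm) huk ((abJ_le Rm).trans hk') ?_ hkeyR n ?_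
      · refine mem_abJ_of_central (hDR huD) fun t ht => ?_
        rw [← huk]
        exact hu_comm k' t (hk' ht)
      · refine mem_normalizer_of_cj_le ?_
        rw [hRm, abJ_map _ Y.subtype_injective]
        rintro _ ⟨_, ⟨t, ht, rfl⟩, rfl⟩
        exact ⟨n * t * n⁻¹, (Subgroup.mem_normalizer_iff.1 hn t).1 ht, rfl⟩))
  intro n hn
  rw [← huk]
  exact congrArg Subtype.val (key ⟨n, hn⟩)

end CfsgLib.WeakClosureJ
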